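import Mathlib
import Cfsg.Agent.H965.ASLt
import Cfsg.Agent.H585.SuRow

/-!
# Exceptional groups: the criterion with a torus (helper489)
-/

set_option autoImplicit false

universe u

namespace Cfsg.Agent.H489.AS

open Subgroup Cfsg.Agent.H465.SU Cfsg.Agent.H965.AS Cfsg.Agent.H965.SU

/-- **Centralizers of elements of order `r`**, if a subgroup `T` contains the centralizers of its elements of order `r`. -/
theorem cent_le_of_torus {G : Type*} [Group G] [Finite G] {r : ℕ} (hr : r.Prime) {T : Subgroup G}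
    (hrT : r ∣ Nat.card T) (hT : ∀ t ∈ T, orderOf t = r → centralizer {t} ≤ T) {u : G} (hu : orderOf u = r) :
    Nat.card (centralizer ({u} : Set G)) ≤ Nat.card T := by
  have : Fact r.Prime := ⟨hr⟩
  obtain ⟨⟨z, hzT⟩, hz⟩ := exists_prime_orderOf_dvd_card' r hrT
  have hz' : orderOf z = r := by rw [← hz]; exact (Subgroup.orderOf_mk z hzT).symm
  have hzp : IsPGroup r ↥(zpowers z) := IsPGroup.of_card (n := 1) (by rw [Nat.card_zpowers, hz', pow_one])
  obtain ⟨R, hR⟩ := hzp.exists_le_sylow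
  have hzR : z ∈ (R : Subgroup G) := hR (mem_zpowers z)
  -- the centre of `R`
  have hRT : (R : Subgroup G) ≤ T := by
    have : Nontrivial ↥(R : Subgroup G) := ⟨⟨⟨z, hzR⟩, 1, fun h => by
      have h1 : z = 1 := congrArg Subtype.val h
      rw [h1, orderOf_one] at hz'
      exact hr.one_lt.ne hz'⟩⟩
    have hc := R.isPGroup'.center_nontrivial
    have hd : r ∣ Nat.card (center ↥(R : Subgroup G)) := by
      have h1 : IsPGroup r (center ↥(R : Subgroup G)) := R.isPGroup'.to_subgroup _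
      obtain ⟨n, hn⟩ := IsPGroup.iff_card.1 h1
      have hn0 : n ≠ 0 := by
        rintro rfl
        rw [pow_zero] at hn
        exact (Finite.one_lt_card (α := center ↥(R : Subgroup G))).ne' hn
      rw [hn]
      exact dvd_pow_self r hn0
    obtain ⟨w, hw⟩ := exists_prime_orderOf_dvd_card' r hd
    have hwo : orderOf ((w : ↥(R : Subgroup G)) : G) = r := by rw [Subgroup.orderOf_coe, Subgroup.orderOf_coe, hw]
    have hwc : ∀ g ∈ (R : Subgroup G), g * ((w : ↥(R : Subgroup G)) : G) = ((w : ↥(R : Subgroup G)) : G) * g := by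
      intro g hg
      exact congrArg Subtype.val (mem_center_iff.1 w.2 ⟨g, hg⟩)
    have hwT : ((w : ↥(R : Subgroup G)) : G) ∈ T :=
      hT z hzT hz' (mem_centralizer_singleton_iff.2 (hwc z hzR).symm)
    exact fun g hg => hT _ hwT hwo (mem_centralizer_singleton_iff.2 (hwc g hg))
  have hup : IsPGroup r ↥(zpowers u) := IsPGroup.of_card (n := 1) (by rw [Nat.card_zpowers, hu, pow_one])
  obtain ⟨Q, hQ⟩ := hup.exists_le_sylow
  obtain ⟨g, hg⟩ := MulAction.exists_smul_eq G Q R
  have hu' : g * u * g⁻¹ ∈ T := by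
    apply hRT
    rw [← hg]
    exact ⟨u, hQ (mem_zpowers u), rfl⟩
  have huo : orderOf (g * u * g⁻¹) = r := by rw [← hu]; exact MulEquiv.orderOf_eq (MulAut.conj g) u
  have hle := hT _ hu' huo
  have hmem : ∀ c : centralizer ({u} : Set G), g * (c : G) * g⁻¹ ∈ T := by
    intro c
    apply hle
    rw [mem_centralizer_singleton_iff]
    have h1 := mem_centralizer_singleton_iff.1 c.2
    calc g * (c : G) * g⁻¹ * (g * u * g⁻¹) = g * ((c : G) * u) * g⁻¹ := by group
      _ = g * (u * (c : G)) * g⁻¹ := by rw [h1]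
      _ = g * u * g⁻¹ * (g * (c : G) * g⁻¹) := by group
  refine Nat.card_le_card_of_injective (fun c : centralizer ({u} : Set G) => (⟨g * (c : G) * g⁻¹, hmem c⟩ : T)) ?_
  intro a b hab
  have h1 : g * (a : G) * g⁻¹ = g * (b : G) * g⁻¹ := congrArg Subtype.val hab
  exact Subtype.ext (mul_left_cancel (mul_right_cancel h1))

/-- the order of the power of order `p` -/
theorem orderOf_pow_pred {G : Type*} [Group G] {p a : ℕ} (hp : p.Prime) (ha : 1 ≤ a) {y : G} (hy : orderOf y = p ^ a) :
    orderOf (y ^ p ^ (a - 1)) = p := by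
  rw [orderOf_pow' _ (pow_pos hp.pos _).ne', hy]
  have h1 : p ^ a = p ^ (a - 1) * p := by rw [← pow_succ, Nat.sub_add_cancel ha]
  rw [h1, Nat.gcd_eq_right (Dvd.intro _ rfl), Nat.mul_div_cancel_left _ (pow_pos hp.pos _)]

/-- **The criterion.** -/
theorem as2_of_cent {K : Type u} [Group K] [Finite K] [IsSimpleGroup K] (hna : ¬ IsMulCommutative K) {p a : ℕ} {y : K}
    (hr : SURow K p a y) (h5 : 5 ≤ p) {c b : ℕ} (hc : ∀ u : K, orderOf u = p → Nat.card (centralizer ({u} : Set K)) ≤ c)
    (hb : ∀ H : Subgroup K, H ≠ ⊤ → b ≤ H.index) (h : 2 * c < p * b) : AS2 K := by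
  have h1 : p ≤ p ^ a := Nat.le_self_pow (by have := hr.ha; omega) p
  exact AS2.of_lt hna hr h5 (hc _ (orderOf_pow_pred hr.hp hr.ha hr.ord)) hb (h.trans_le (Nat.mul_le_mul_right _ h1))

end Cfsg.Agent.H489.AS
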