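import Mathlib
import Cfsg.Agent.H489.AS.Cent

/-!
# The subgroup `K1` when the fixed space has dimension at most one (helper489)
-/

set_option autoImplicit false

universe u v w

namespace Cfsg.Agent.H489.AS

open Module Cfsg.Agent.H518.DghpFix Cfsg.Agent.H518.SU

variable {F : Type u} [Field F] [Fintype F] {V : Type v} [AddCommGroup V] [Module F V] [FiniteDimensional F V]
variable {G : Type w} [Group G] [Finite G] {φ : G →* (V →ₗ[F] V)} {p : ℕ} {z : G}

theorem facts_of (hφ : Function.Injective φ) (hp : p.Prime) (hpF : ¬ p ∣ Fintype.card F)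
    (h2e : finrank F V < 2 * orderOf ((Fintype.card F : ℕ) : ZMod p)) (hz : orderOf z = p) :
    finrank F (LinearMap.range (φ z - 1)) = orderOf ((Fintype.card F : ℕ) : ZMod p) ∧
      LinearMap.range (φ z - 1) ⊓ fixS (φ z) = ⊥ ∧ LinearMap.range (φ z - 1) ⊔ fixS (φ z) = ⊤ := by
  refine range_facts hp hpF (by rw [← map_pow, ← hz, pow_orderOf_eq_one, map_one]) (fun h => ?_) h2e
  have h1 : z = 1 := hφ (by rw [h, map_one])
  rw [h1, orderOf_one] at hz
  exact hp.one_lt.ne hz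

/-- The dimension of the fixed space. -/
theorem finrank_fixS (hφ : Function.Injective φ) (hp : p.Prime) (hpF : ¬ p ∣ Fintype.card F)
    (h2e : finrank F V < 2 * orderOf ((Fintype.card F : ℕ) : ZMod p)) (hz : orderOf z = p) :
    finrank F (fixS (φ z)) + orderOf ((Fintype.card F : ℕ) : ZMod p) = finrank F V := by
  obtain ⟨h1, h2, h3⟩ := facts_of hφ hp hpF h2e hz
  have h4 := Submodule.finrank_sup_add_finrank_inf_eq (LinearMap.range (φ z - 1)) (fixS (φ z))
  rw [h2, h3, finrank_bot, finrank_top, h1] at h4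
  omega

theorem eq_one_of_mem_K1 (hφ : Function.Injective φ) (hp : p.Prime) (hpF : ¬ p ∣ Fintype.card F)
    (h2e : finrank F V < 2 * orderOf ((Fintype.card F : ℕ) : ZMod p)) (hz : orderOf z = p) {g : G} (hg : g ∈ K1 φ z)
    (h : ∀ c ∈ fixS (φ z), φ g c = c) : g = 1 := by
  obtain ⟨h1, h2, h3⟩ := facts_of hφ hp hpF h2e hz
  apply hφ
  rw [map_one]
  ext v
  have hv : v ∈ LinearMap.range (φ z - 1) ⊔ fixS (φ z) := by rw [h3]; trivial
  obtain ⟨a, ⟨w, rfl⟩, c, hc, rfl⟩ := Submodule.mem_sup.1 hv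
  rw [map_add, h c hc, Module.End.one_apply]
  congr 1
  exact hg.2 w

theorem K1_fixS_invariant {g : G} (hg : g ∈ K1 φ z) : ∀ c ∈ fixS (φ z), φ g c ∈ fixS (φ z) := by
  refine fixS_invariant ?_
  rw [← map_mul, ← map_mul, hg.1]

/-- The irreducible case. -/
theorem K1_eq_bot (hφ : Function.Injective φ) (hp : p.Prime) (hpF : ¬ p ∣ Fintype.card F)
    (h2e : finrank F V < 2 * orderOf ((Fintype.card F : ℕ) : ZMod p)) (hz : orderOf z = p)
    (he : finrank F V = orderOf ((Fintype.card F : ℕ) : ZMod p)) : K1 φ z = ⊥ := by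
  rw [eq_bot_iff]
  intro g hg
  rw [Subgroup.mem_bot]
  refine eq_one_of_mem_K1 hφ hp hpF h2e hz hg fun c hc => ?_
  have h1 := finrank_fixS hφ hp hpF h2e hz
  have h2 : fixS (φ z) = ⊥ := Submodule.finrank_eq_zero.1 (by omega)
  rw [h2, Submodule.mem_bot] at hc
  rw [hc, map_zero]

theorem card_K1_eq_one (hφ : Function.Injective φ) (hp : p.Prime) (hpF : ¬ p ∣ Fintype.card F)
    (h2e : finrank F V < 2 * orderOf ((Fintype.card F : ℕ) : ZMod p)) (hz : orderOf z = p)
    (he : finrank F V = orderOf ((Fintype.card F : ℕ) : ZMod p)) : Nat.card (K1 φ z) = 1 := by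
  rw [K1_eq_bot hφ hp hpF h2e hz he, Subgroup.card_bot]

variable {B : V → V → F}

/-- **The fixed space of dimension one.** -/
theorem exists_fix_vec (hφ : Function.Injective φ) (hB : Frm B) (hGB : ∀ g u v, B (φ g u) (φ g v) = B u v)
    (hp : p.Prime) (hpF : ¬ p ∣ Fintype.card F)
    (h2e : finrank F V < 2 * orderOf ((Fintype.card F : ℕ) : ZMod p)) (hz : orderOf z = p)
    (he : finrank F V = orderOf ((Fintype.card F : ℕ) : ZMod p) + 1) :
    ∃ c ∈ fixS (φ z), B c c ≠ 0 ∧ ∀ d ∈ fixS (φ z), ∃ t : F, d = t • c := by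
  have h1 := finrank_fixS hφ hp hpF h2e hz
  have h2 : finrank F (fixS (φ z)) = 1 := by omega
  obtain ⟨c, hc, h3⟩ := finrank_eq_one_iff'.1 h2
  refine ⟨c, c.2, fun h => hc ?_, fun d hd => ?_⟩
  · apply Subtype.ext
    refine eq_zero_of_fix hB (cast_ne_zero_of_not_dvd hp hpF)
      (show φ z ^ p = 1 by rw [← map_pow, ← hz, pow_orderOf_eq_one, map_one]) (hGB z) c.2 fun d hd => ?_
    obtain ⟨t, ht⟩ := h3 ⟨d, hd⟩
    have h4 : d = t • (c : V) := (congrArg Subtype.val ht).symm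
    rw [h4, hB.smul, h, mul_zero]
  · obtain ⟨t, ht⟩ := h3 ⟨d, hd⟩
    exact ⟨t, (congrArg Subtype.val ht).symm⟩

/-- `K1` acts by scalars on a fixed space of dimension one. -/
theorem exists_scalar_K1 (hφ : Function.Injective φ) (hB : Frm B) (hGB : ∀ g u v, B (φ g u) (φ g v) = B u v)
    (σ : F →+* F) (hσ : ∀ (c : F) x y, B (c • x) y = σ c * B x y)
    (hp : p.Prime) (hpF : ¬ p ∣ Fintype.card F)
    (h2e : finrank F V < 2 * orderOf ((Fintype.card F : ℕ) : ZMod p)) (hz : orderOf z = p)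
    (he : finrank F V = orderOf ((Fintype.card F : ℕ) : ZMod p) + 1) {g : G} (hg : g ∈ K1 φ z) :
    ∃ t : F, σ t * t = 1 ∧ ∀ d ∈ fixS (φ z), φ g d = t • d := by
  obtain ⟨c, hc, hcc, h1⟩ := exists_fix_vec hφ hB hGB hp hpF h2e hz he
  obtain ⟨t, ht⟩ := h1 _ (K1_fixS_invariant hg c hc)
  refine ⟨t, ?_, fun d hd => ?_⟩
  · have h2 := hGB g c c
    rw [ht, hσ, hB.smul, ← mul_assoc] at h2
    exact mul_right_cancel₀ hcc (by rw [h2, one_mul])
  · obtain ⟨s, rfl⟩ := h1 d hd
    rw [map_smul, ht, smul_comm]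

/-- Bilinear forms: at most two elements. -/
theorem card_K1_le_two (hφ : Function.Injective φ) (hB : Frm B) (hGB : ∀ g u v, B (φ g u) (φ g v) = B u v)
    (hσ : ∀ (c : F) x y, B (c • x) y = c * B x y)
    (hp : p.Prime) (hpF : ¬ p ∣ Fintype.card F)
    (h2e : finrank F V < 2 * orderOf ((Fintype.card F : ℕ) : ZMod p)) (hz : orderOf z = p)
    (he : finrank F V = orderOf ((Fintype.card F : ℕ) : ZMod p) + 1) : Nat.card (K1 φ z) ≤ 2 := by
  classical
  have h1 : ∀ g : K1 φ z, ∃ t : F, t * t = 1 ∧ ∀ d ∈ fixS (φ z), φ (g : G) d = t • d := fun g =>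
    exists_scalar_K1 hφ hB hGB (RingHom.id F) (fun c x y => hσ c x y) hp hpF h2e hz he g.2
  choose t ht ht2 using h1
  have h2 : Function.Injective (fun g : K1 φ z => (⟨t g, by
      rw [Finset.mem_insert, Finset.mem_singleton]
      exact mul_self_eq_one_iff.1 (ht g)⟩ : ({1, -1} : Finset F))) := by
    intro a b hab
    have h3 : t a = t b := congrArg Subtype.val hab
    have h4 : (a : G)⁻¹ * b ∈ K1 φ z := (K1 φ z).mul_mem ((K1 φ z).inv_mem a.2) b.2
    have h5 : (a : G)⁻¹ * b = 1 := by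
      refine eq_one_of_mem_K1 hφ hp hpF h2e hz h4 fun c hc => ?_
      rw [map_mul, Module.End.mul_apply, ht2 b c hc, ← h3, ← ht2 a c hc, ← Module.End.mul_apply, ← map_mul,
        inv_mul_cancel, map_one]
      rfl
    exact Subtype.ext (inv_mul_eq_one.1 h5)
  refine (Nat.card_le_card_of_injective _ h2).trans ?_
  rw [Nat.card_eq_fintype_card, Fintype.card_coe]
  exact Finset.card_le_two

end Cfsg.Agent.H489.AS
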