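import Mathlib
import Cfsg.Agent.H489.AS.ExcBase
import Cfsg.Agent.H585.SuTD4
import Cfsg.Agent.H934.HeisTwD4
import Cfsg.Agent.H965.SUTwD4Two

/-!
# S3943: the groups `³D₄(q)` (helper489)
-/

set_option autoImplicit false

universe u

namespace Cfsg.Agent.H489.AS

open Subgroup Cfsg.Lie Cfsg.Agent.H465.SU Cfsg.Agent.H965.AS Cfsg.Agent.H965.SU

/-- the row of `³D₄(2)` with `13` (after helper965) -/
theorem row_two {F : Type} [Field F] [Fintype F] (hF : Fintype.card F = 8) :
    ∃ y : ↥(twistedD4 F 2), SURow ↥(twistedD4 F 2) 13 1 y := by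
  have hF3 : Fintype.card F = 2 ^ 3 := by rw [hF]; norm_num
  have hq : IsPrimePow 2 := Nat.prime_two.isPrimePow
  have : Finite ↥(twistedD4 F 2) := by
    have : Finite (GL chevD4.Idx F) := inferInstance
    infer_instance
  have h2f : Fact (Nat.Prime 2) := ⟨Nat.prime_two⟩
  have hc2 : CharP F 2 := Cfsg.Agent.H967.CopSz.charP_of_card Nat.prime_two hF3
  have h13 : Nat.Prime 13 := by norm_num
  have : Fact (Nat.Prime 13) := ⟨h13⟩
  have hcard : Nat.card ↥(twistedD4 F 2) = 211341312 := by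
    rw [Cfsg.Agent.S1067.result hq hF3]
    norm_num
  obtain ⟨H, hH, hHc, hHH⟩ := Cfsg.Agent.H129.TwD4Cyc.coxeter_torus (K := F) hq hF3
  have hH13 : Nat.card ↥H = 13 := by rw [hHc]; norm_num
  obtain ⟨g, hg⟩ := IsCyclic.exists_ofOrder_eq_natCard (α := ↥H)
  have hy : orderOf (g : ↥(twistedD4 F 2)) = 13 := by rw [Subgroup.orderOf_coe, hg, hH13]
  have hzH : zpowers (g : ↥(twistedD4 F 2)) = H := by
    refine eq_of_le_of_card_ge (zpowers_le.2 g.2) ?_
    rw [Nat.card_zpowers, hy, hH13]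
  have hc : Nat.card ↥(centralizer ({(g : ↥(twistedD4 F 2))} : Set ↥(twistedD4 F 2))) = 13 := by
    have h1 : centralizer ({(g : ↥(twistedD4 F 2))} : Set ↥(twistedD4 F 2)) =
        centralizer (zpowers (g : ↥(twistedD4 F 2)) : Set ↥(twistedD4 F 2)) := by
      ext u
      rw [mem_centralizer_singleton_iff, mem_centralizer_iff]
      constructor
      · intro hu
        rintro _ ⟨k, rfl⟩
        exact ((Commute.zpow_right (show Commute u (g : ↥(twistedD4 F 2)) from hu) k).eq).symm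
      · intro hu
        exact (hu _ (mem_zpowers _)).symm
    rw [h1, hzH, hHH, hH13]
  have hfull : ¬ 13 ^ 2 ∣ Nat.card ↥(twistedD4 F 2) := by rw [hcard]; norm_num
  obtain ⟨ρ, hρ, -⟩ := Cfsg.Agent.CpAutTwD.Emb.exists_rho (F := F) (CharP.cast_eq_zero F 2) (q := 2)
  let τ : ↥(twistedD4 F 2) →* ((Fin 4 ⊕ Fin 4 → F) ≃ₗ[F] (Fin 4 ⊕ Fin 4 → F)) :=
    (LinearMap.GeneralLinearGroup.generalLinearEquiv F (Fin 4 ⊕ Fin 4 → F)).toMonoidHom.comp
      (Matrix.GeneralLinearGroup.toLin.toMonoidHom.comp ρ)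
  have hτ : Function.Injective τ :=
    (LinearMap.GeneralLinearGroup.generalLinearEquiv F (Fin 4 ⊕ Fin 4 → F)).injective.comp
      (Matrix.GeneralLinearGroup.toLin.injective.comp hρ)
  refine ⟨g, h13, by norm_num, le_rfl, by rw [hy, pow_one], ?_, hfull, ?_⟩
  · refine suel_of_noNorm h13 hy hfull fun t ht htl _ => ?_
    by_cases ht2 : t = 2
    · subst ht2
      exact Cfsg.Agent.H965.OwnTwD4.noNorm_twD4 hq hF3 h13 hy (cen_of_card h13 Nat.prime_two htl hc)
        (by norm_num) (by norm_num)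
    · refine noNorm_of_lin τ hτ h13 (by norm_num) ht htl ?_ hy hc ?_
      · intro h0
        exact ht2 ((Nat.prime_dvd_prime_iff_eq Nat.prime_two ht).1 ((CharP.cast_eq_zero_iff F 2 t).1 h0)).symm
      · rw [Module.finrank_fintype_fun_eq_card, Fintype.card_sum, Fintype.card_fin]
        norm_num
  · refine inner_of_card h13 ?_
    have h1 := Cfsg.Agent.S2129.result (K := F) 2 1 (by rw [hF3]) le_rfl
    rw [pow_one] at h1
    rw [h1]
    norm_num


/-- the group itself -/
theorem as2_td4_aux {F : Type} [Field F] [Fintype F] {q : ℕ} (hq : IsPrimePow q) (hF : Fintype.card F = q ^ 3)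
    (hs : IsSimpleGroup ↥(twistedD4 F q)) (hna : ¬ IsMulCommutative ↥(twistedD4 F q)) :
    AS2 ↥(twistedD4 F q) := by
  have hfin : Finite ↥(twistedD4 F q) := by
    have : Finite (GL chevD4.Idx F) := inferInstance
    infer_instance
  have hq2 : 2 ≤ q := hq.two_le
  have hcard := Cfsg.Agent.S1067.result (K := F) hq hF
  have hle : q ^ 2 ≤ q ^ 4 := Nat.pow_le_pow_right (by omega) (by norm_num)
  -- any row will do
  suffices h : ∃ (r a : ℕ) (y : ↥(twistedD4 F q)), SURow _ r a y ∧ 7 < r ∧ r ∣ q ^ 4 - q ^ 2 + 1 by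
    obtain ⟨r, a, y, hrow, h7, hr1⟩ := h
    refine as2_of_cent hna hrow (by omega) (c := q ^ 4 - q ^ 2 + 1) (b := q ^ 5) (fun u hu => ?_) (fun H hH => ?_) ?_
    · obtain ⟨T, h2, h3, h4, h5, h6⟩ := H585.SuTD4.torus hq hF (N := q ^ 4 - q ^ 2 + 1)
        (by push_cast [Nat.cast_sub hle]; ring) hrow.hp h7 hr1
      rw [one_mul] at h3 h4
      rw [one_mul] at h4
      exact (cent_le_of_torus hrow.hp (hr1.trans h4) h6 hu).trans (Nat.le_of_dvd (by omega) h3)
    · have h1 := H934.HeisTwD4.bound_3D4 hq hF hs H hH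
      rw [show q ^ 10 = (q ^ 5) ^ 2 by ring] at h1
      exact (Nat.pow_le_pow_iff_left (by norm_num)).1 h1
    · have h1 : 8 * q ^ 5 ≤ r * q ^ 5 := Nat.mul_le_mul_right _ (by omega)
      have h2 : 2 * q ^ 4 ≤ q ^ 5 := by rw [pow_succ' q 4]; exact Nat.mul_le_mul_right _ hq2
      have h3 : 1 ≤ q ^ 2 := Nat.one_le_pow _ _ (by omega)
      have h4 : 0 < q ^ 5 := pow_pos (by omega) _
      omega
  by_cases h2 : q = 2
  · subst h2
    obtain ⟨y, hrow⟩ := row_two (F := F) (by rw [hF]; norm_num)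
    exact ⟨13, 1, y, hrow, by norm_num, by norm_num⟩
  · obtain ⟨r, a, y, hr, h7, ha, hy, hfull, hsu, ⟨p, f, hp, hqf, hrf⟩, hor⟩ := H585.SuTD4.resultE hq hF h2
    have hpf : Fact p.Prime := ⟨hp⟩
    have hF' : Fintype.card F = p ^ (3 * f) := by rw [hF, hqf, ← pow_mul, mul_comm]
    have hcp : CharP F p := H967.CopSz.charP_of_card hp hF'
    have hf1 : 1 ≤ f := by
      rcases Nat.eq_zero_or_pos f with h | h
      · rw [h, pow_zero] at hqf
        omega
      · exact h
    have hout := Cfsg.Agent.S2129.result (K := F) p f hF' hf1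
    rw [← hqf] at hout
    have hrow : SURow ↥(twistedD4 F q) r a y :=
      { hp := hr
        odd := by omega
        ha := ha
        ord := hy
        su := hsu
        full := hfull
        inn := fun β hβ => inner_of_card hr (fun h1 => by
          rw [hout] at h1
          rcases hr.dvd_mul.1 h1 with h5 | h5
          · have := Nat.le_of_dvd (by norm_num) h5
            omega
          · exact hrf h5) β hβ }
    have hrG : r ∣ Nat.card ↥(twistedD4 F q) := by
      have h1 : orderOf y ∣ Nat.card ↥(twistedD4 F q) := orderOf_dvd_natCard _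
      rw [hy] at h1
      exact (dvd_pow_self r (by omega)).trans h1
    have hr1 : r ∣ q ^ 4 - q ^ 2 + 1 := by
      rcases hor with h1 | h1
      · subst h1
        have hrq : ¬ r ∣ q := by
          intro h2
          apply hfull
          rw [hcard]
          exact ((((pow_dvd_pow_of_dvd h2 2).trans (pow_dvd_pow q (by norm_num : 2 ≤ 12))).mul_right _).mul_right _).mul_right _
        have e1 : q ^ 8 + q ^ 4 + 1 = (q ^ 4 + q ^ 2 + 1) * (q ^ 4 - q ^ 2 + 1) := by
          zify [hle]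
          ring
        have e2 : q ^ 6 - 1 = (q ^ 2 - 1) * (q ^ 4 + q ^ 2 + 1) := by
          have h1 : 1 ≤ q ^ 6 := Nat.one_le_pow _ _ (by omega)
          have h2 : 1 ≤ q ^ 2 := Nat.one_le_pow _ _ (by omega)
          zify [h1, h2]
          ring
        have hsq : ∀ x m : ℕ, Nat.card ↥(twistedD4 F q) = x * x * m → ¬ r ∣ x := by
          intro x m h2 h3
          apply hfull
          rw [h2, show 1 + 1 = 2 from rfl, pow_two]
          exact (mul_dvd_mul h3 h3).mul_right _
        have hn1 : ¬ r ∣ q ^ 2 - 1 := hsq _ (q ^ 12 * (q ^ 4 + q ^ 2 + 1) * (q ^ 8 + q ^ 4 + 1)) (by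
          rw [hcard, e2]; ring)
        have hn2 : ¬ r ∣ q ^ 4 + q ^ 2 + 1 := hsq _ (q ^ 12 * (q ^ 2 - 1) * (q ^ 2 - 1) * (q ^ 4 - q ^ 2 + 1)) (by
          rw [hcard, e2, e1]; ring)
        rw [hcard, e1, e2] at hrG
        rcases hr.dvd_mul.1 hrG with h2 | h2
        · rcases hr.dvd_mul.1 h2 with h2 | h2
          · rcases hr.dvd_mul.1 h2 with h2 | h2
            · exact absurd (hr.dvd_of_dvd_pow h2) hrq
            · exact absurd h2 hn1
          · rcases hr.dvd_mul.1 h2 with h2 | h2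
            · exact absurd h2 hn1
            · exact absurd h2 hn2
        · rcases hr.dvd_mul.1 h2 with h2 | h2
          · exact absurd h2 hn2
          · exact h2
      · exact H585.SuPhi.dvd12 (N := q ^ 4 - q ^ 2 + 1) (by push_cast [Nat.cast_sub hle]; ring) r hr h1
    refine ⟨r, a, y, hrow, ?_, hr1⟩
    by_contra h8
    have hr7 : r = 7 := by omega
    subst hr7
    -- 7 does not divide `q⁴ - q² + 1`
    obtain ⟨k, hk⟩ := hr1
    have h9 : (q ^ 4 + 1) % 7 = (q ^ 2) % 7 := by omega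
    have h10 : q % 7 = 0 ∨ q % 7 = 1 ∨ q % 7 = 2 ∨ q % 7 = 3 ∨ q % 7 = 4 ∨ q % 7 = 5 ∨ q % 7 = 6 := by omega
    rcases h10 with h | h | h | h | h | h | h <;>
      · rw [Nat.add_mod, Nat.pow_mod, h, Nat.pow_mod q 2, h] at h9
        revert h9
        norm_num

/-- **The groups `³D₄(q)`.** -/
theorem as2_3D4 {K : Type u} [Group K] [Finite K] [IsSimpleGroup K] (hna : ¬ IsMulCommutative K)
    (h : Iso3D4 K) : AS2 K := by
  obtain ⟨F, _, _, q, hq, hF, ⟨e⟩⟩ := h
  have hs : IsSimpleGroup ↥(twistedD4 F q) := e.symm.isSimpleGroup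
  exact AS2.congr e.symm (as2_td4_aux hq hF hs fun h1 => hna ⟨⟨fun a b => e.injective (by
    rw [map_mul, map_mul]; exact h1.is_comm.comm _ _)⟩⟩)

end Cfsg.Agent.H489.AS
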